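import Cfsg.Agent.Lib.TwoGroups.MetacyclicAut
import Cfsg.Agent.Lib.PGroups.Series
import Cfsg.Agent.Lib.PGroups.Omega

/-!
Metacyclic p-groups: chains with cyclic steps invariant under a set of automorphisms, and the
homocyclic exception for odd p.
-/

set_option autoImplicit false
set_option linter.style.haveILetI false
set_option linter.unusedSectionVars false

namespace CfsgLib.TwoGroups.MetaChain

open scoped commutatorElement

universe u

variable {X : Type u} [Group X] [Finite X] {p : ℕ} [hp : Fact p.Prime]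

/-- No subgroup of index `p` is invariant under `A`. -/
def NoInv (p : ℕ) (A : Set (MulAut X)) : Prop :=
  ∀ M : Subgroup X, M.index = p → ¬ ∀ a ∈ A, M.map a.toMonoidHom = M

theorem map_eq_of_le {M : Subgroup X} {a : MulAut X} (h : ∀ x ∈ M, a x ∈ M) :
    M.map a.toMonoidHom = M := by
  refine Subgroup.eq_of_le_of_card_ge ?_ (Subgroup.card_map_of_injective a.injective).ge
  rintro _ ⟨x, hx, rfl⟩
  exact h x hx

theorem noInv_quotient {A : Set (MulAut X)} (hno : NoInv p A) (N : Subgroup X) [N.Normal]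
    (hN : ∀ a ∈ A, N.map a.toMonoidHom = N) :
    NoInv p {b : MulAut (X ⧸ N) | ∃ a ∈ A, ∀ x, b (QuotientGroup.mk' N x) = QuotientGroup.mk' N (a x)} := by
  intro M hM hinv
  refine hno (M.comap (QuotientGroup.mk' N))
    (by rw [Subgroup.index_comap_of_surjective _ (QuotientGroup.mk'_surjective N), hM])
    fun a ha => map_eq_of_le fun x hx => ?_
  have h1 := hinv (QuotientGroup.congr N N a (hN a ha)) ⟨a, ha, fun x => rfl⟩
  show QuotientGroup.mk' N (a x) ∈ M
  rw [← h1]
  exact ⟨QuotientGroup.mk' N x, hx, rfl⟩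

theorem not_noInv_of_hom {A : Set (MulAut X)} (hno : NoInv p A) (f : X →* X)
    (hf : ∀ a ∈ A, ∀ x, f (a x) = a (f x)) : Nat.card f.range ≠ p := fun hc =>
  hno f.ker (by rw [Subgroup.index_ker]; exact hc) fun a ha =>
    map_eq_of_le fun x hx => by
      rw [MonoidHom.mem_ker] at hx ⊢
      rw [hf a ha, hx, map_one]

/-- An abelian two-generator p-group without invariant subgroups of index `p` is homocyclic. -/
theorem homocyclic_of_noInv (hX : IsPGroup p X) (hc : ∀ x y : X, x * y = y * x) {a b : X}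
    (hab : Subgroup.zpowers a ⊔ Subgroup.zpowers b = ⊤) (hne : Nontrivial X) {A : Set (MulAut X)}
    (hno : NoInv p A) :
    ∃ k : ℕ, 0 < k ∧ (∀ x : X, x ^ p ^ k = 1) ∧
      Nonempty (X ≃* Multiplicative (ZMod (p ^ k)) × Multiplicative (ZMod (p ^ k))) := by
  obtain ⟨i, hi⟩ := IsPGroup.iff_orderOf.1 hX a
  obtain ⟨j, hj⟩ := IsPGroup.iff_orderOf.1 hX b
  haveI : (Subgroup.zpowers a).Normal := ⟨fun w hw g => by rwa [hc g w, mul_inv_cancel_right]⟩
  have hgen : ∀ z : X, ∃ u ∈ Subgroup.zpowers a, ∃ v ∈ Subgroup.zpowers b, z = u * v := fun z => by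
    obtain ⟨u, hu, v, hv, h⟩ := Subgroup.mem_sup_of_normal_left.1 (hab ▸ Subgroup.mem_top z)
    exact ⟨u, hu, v, hv, h.symm⟩
  have hexp : ∀ x : X, x ^ p ^ max i j = 1 := by
    intro x
    obtain ⟨u, hu, v, hv, rfl⟩ := hgen x
    have hu' : u ^ p ^ max i j = 1 := orderOf_dvd_iff_pow_eq_one.1
      ((orderOf_dvd_of_mem_zpowers hu).trans (hi ▸ pow_dvd_pow p (le_max_left i j)))
    have hv' : v ^ p ^ max i j = 1 := orderOf_dvd_iff_pow_eq_one.1
      ((orderOf_dvd_of_mem_zpowers hv).trans (hj ▸ pow_dvd_pow p (le_max_right i j)))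
    rw [(show Commute u v from hc u v).mul_pow, hu', hv', one_mul]
  obtain ⟨k, hk⟩ : ∃ k, max i j = k + 1 := by
    refine ⟨max i j - 1, ?_⟩
    rcases Nat.eq_zero_or_pos (max i j) with h | h
    · exfalso
      obtain ⟨x, hx⟩ := exists_ne (1 : X)
      exact hx (by simpa [h] using hexp x)
    · omega
  rw [hk] at hexp
  let f : X →* X :=
    { toFun := fun x => x ^ p ^ k
      map_one' := one_pow _
      map_mul' := fun x y => (show Commute x y from hc x y).mul_pow _ }
  have hf : ∀ x, f x = x ^ p ^ k := fun _ => rfl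
  have hnp := not_noInv_of_hom hno f fun a _ x => by rw [hf, hf, map_pow]
  have hfp : ∀ x, f x ^ p = 1 := fun x => by rw [hf, ← pow_mul, ← pow_succ, hexp]
  have hrange : f.range = Subgroup.zpowers (f a) ⊔ Subgroup.zpowers (f b) := by
    rw [MonoidHom.range_eq_map, ← hab, Subgroup.map_sup, MonoidHom.map_zpowers, MonoidHom.map_zpowers]
  have hcz : ∀ x, f x ≠ 1 → Nat.card (Subgroup.zpowers (f x)) = p := fun x hx => by
    rw [Nat.card_zpowers, orderOf_eq_prime (hfp x) hx]
  have hfa : f a ≠ 1 := fun h => by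
    rw [h, Subgroup.zpowers_one_eq_bot, bot_sup_eq] at hrange
    rcases eq_or_ne (f b) 1 with h2 | h2
    · have hone : ∀ x : X, f x = 1 := fun x => by
        have := hrange.le ⟨x, rfl⟩
        rwa [h2, Subgroup.zpowers_one_eq_bot, Subgroup.mem_bot] at this
      rcases max_cases i j with ⟨h3, -⟩ | ⟨h3, -⟩
      · have h5 := hone a
        rw [hf, ← orderOf_dvd_iff_pow_eq_one, hi, Nat.pow_dvd_pow_iff_le_right hp.out.one_lt] at h5
        omega
      · have h5 := hone b
        rw [hf, ← orderOf_dvd_iff_pow_eq_one, hj, Nat.pow_dvd_pow_iff_le_right hp.out.one_lt] at h5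
        omega
    · exact hnp (by rw [hrange, hcz b h2])
  have hfb : f b ≠ 1 := fun h => hnp (by
    rw [hrange, h, Subgroup.zpowers_one_eq_bot, sup_bot_eq, hcz a hfa])
  have hord : ∀ x, f x ≠ 1 → orderOf x = p ^ (k + 1) := fun x hx =>
    orderOf_eq_prime_pow hx (hexp x)
  have hdis : Subgroup.zpowers a ⊓ Subgroup.zpowers b = ⊥ := by
    by_contra hne'
    obtain ⟨z, hz, hz1⟩ := (Subgroup.bot_or_exists_ne_one _).resolve_left hne'
    obtain ⟨m, hm⟩ := IsPGroup.iff_orderOf.1 hX z
    rcases m with _ | m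
    · exact hz1 (orderOf_eq_one_iff.1 (by simpa using hm))
    set w := z ^ p ^ m
    have hw1 : w ≠ 1 := fun h => by
      have := orderOf_dvd_of_pow_eq_one h
      rw [hm, Nat.pow_dvd_pow_iff_le_right hp.out.one_lt] at this
      omega
    have hwp : w ^ p = 1 := by rw [← pow_mul, ← pow_succ, ← hm, pow_orderOf_eq_one]
    have hin : ∀ x, f x ≠ 1 → w ∈ Subgroup.zpowers x → Subgroup.zpowers w = Subgroup.zpowers (f x) := by
      intro x hx hwx
      obtain ⟨s, hs⟩ := Subgroup.mem_zpowers_iff.1 hwx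
      have h1 : x ^ (s * p) = 1 := by rw [zpow_mul, hs, zpow_natCast, hwp]
      rw [← orderOf_dvd_iff_zpow_eq_one, hord x hx, pow_succ, Nat.cast_mul] at h1
      obtain ⟨t, ht⟩ := (Int.dvd_of_mul_dvd_mul_right (by exact_mod_cast hp.out.ne_zero) h1)
      refine Subgroup.eq_of_le_of_card_ge (Subgroup.zpowers_le.2 ⟨t, ?_⟩)
        (by rw [hcz x hx, Nat.card_zpowers, orderOf_eq_prime hwp hw1])
      show f x ^ t = w
      rw [hf, ← zpow_natCast, ← zpow_mul, ← ht, hs]
    have he := (hin a hfa (Subgroup.pow_mem _ hz.1 _)).symm.trans (hin b hfb (Subgroup.pow_mem _ hz.2 _))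
    exact hnp (by rw [hrange, he, sup_idem, hcz b hfb])
  refine ⟨k + 1, Nat.succ_pos k, hexp, ?_⟩
  let P : ↥(Subgroup.zpowers a) × ↥(Subgroup.zpowers b) →* X :=
    (Subgroup.zpowers a).subtype.noncommCoprod (Subgroup.zpowers b).subtype fun x y => hc x y
  have hP : Function.Bijective P := by
    refine ⟨(injective_iff_map_eq_one P).2 fun ⟨x, y⟩ h => ?_, fun z => ?_⟩
    · have h' : (x : X) * y = 1 := h
      have hxy : (x : X) ∈ Subgroup.zpowers a ⊓ Subgroup.zpowers b :=
        ⟨x.2, by rw [eq_inv_of_mul_eq_one_left h']; exact Subgroup.inv_mem _ y.2⟩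
      rw [hdis, Subgroup.mem_bot] at hxy
      refine Prod.ext (Subtype.ext hxy) (Subtype.ext ?_)
      rw [hxy, one_mul] at h'
      exact h'
    · obtain ⟨u, hu, v, hv, rfl⟩ := hgen z
      exact ⟨(⟨u, hu⟩, ⟨v, hv⟩), rfl⟩
  have ez : ∀ x, f x ≠ 1 → Nonempty (Multiplicative (ZMod (p ^ (k + 1))) ≃* ↥(Subgroup.zpowers x)) :=
    fun x hx => by
      have e := zmodCyclicMulEquiv (G := ↥(Subgroup.zpowers x)) inferInstance
      rw [Nat.card_zpowers, hord x hx] at e
      exact ⟨e⟩
  obtain ⟨ea⟩ := ez a hfa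
  obtain ⟨eb⟩ := ez b hfb
  exact ⟨(MulEquiv.ofBijective P hP).symm.trans (ea.prodCongr eb).symm⟩

/-- A metacyclic p-group, `p` odd, without invariant subgroups of index `p` is homocyclic. -/
theorem homocyclic_of_metacyclic (hp2 : p ≠ 2) (hX : IsPGroup p X) (hm : Cfsg.IsMetacyclic X)
    (hne : Nontrivial X) {A : Set (MulAut X)} (hno : NoInv p A) :
    ∃ k : ℕ, 0 < k ∧
      Nonempty (X ≃* Multiplicative (ZMod (p ^ k)) × Multiplicative (ZMod (p ^ k))) := by
  classical
  obtain ⟨a, b, hab⟩ := exists_two_gen hm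
  by_cases hc : ∀ x y : X, x * y = y * x
  · obtain ⟨k, hk, -, e⟩ := homocyclic_of_noInv hX hc hab hne hno
    exact ⟨k, hk, e⟩
  exfalso
  have hmem := hm
  obtain ⟨N, hN, hNc, hQc⟩ := hmem
  have hDN : commutator X ≤ N := by
    rw [commutator_def, Subgroup.commutator_le]
    intro x _ y _
    letI := IsCyclic.commGroup (α := X ⧸ N)
    refine (QuotientGroup.eq_one_iff _).1 ?_
    show QuotientGroup.mk' N ⁅x, y⁆ = 1
    rw [map_commutatorElement, commutatorElement_eq_one_iff_mul_comm, mul_comm]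
  have hDcyc : IsCyclic (commutator X) :=
    isCyclic_of_injective (Subgroup.inclusion hDN) (Subgroup.inclusion_injective hDN)
  obtain ⟨c, hc'⟩ := hDcyc.exists_generator
  have hgen : commutator X = Subgroup.zpowers (c : X) := by
    refine le_antisymm (fun x hx => ?_) (Subgroup.zpowers_le.2 c.2)
    obtain ⟨i, hi⟩ := Subgroup.mem_zpowers_iff.1 (hc' ⟨x, hx⟩)
    exact Subgroup.mem_zpowers_iff.2 ⟨i, by simpa using congrArg Subtype.val hi⟩
  set X1 := Subgroup.zpowers ((c : X) ^ p) with hX1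
  have hsq : ∀ z ∈ commutator X, z ^ p ∈ X1 := by
    intro z hz
    rw [hgen] at hz
    obtain ⟨i, rfl⟩ := Subgroup.mem_zpowers_iff.1 hz
    refine Subgroup.mem_zpowers_iff.2 ⟨i, ?_⟩
    rw [← zpow_natCast, ← zpow_mul, ← zpow_natCast, ← zpow_mul, mul_comm]
  haveI hX1n : X1.Normal := by
    refine ⟨fun w hw g => ?_⟩
    obtain ⟨i, rfl⟩ := Subgroup.mem_zpowers_iff.1 hw
    rw [← zpow_natCast, ← zpow_mul, mul_comm, zpow_mul, zpow_natCast, ← conj_pow]
    exact hsq _ ((inferInstance : (commutator X).Normal).conj_mem _ (zpow_mem c.2 i) g)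
  have hcne : (c : X) ≠ 1 := by
    intro h
    refine hc fun x y => commutatorElement_eq_one_iff_mul_comm.1 ?_
    have hmem := Subgroup.commutator_mem_commutator (Subgroup.mem_top x) (Subgroup.mem_top y)
    change ⁅x, y⁆ ∈ commutator X at hmem
    rwa [hgen, h, Subgroup.zpowers_one_eq_bot, Subgroup.mem_bot] at hmem
  have hcX1 : (c : X) ∉ X1 := by
    intro h
    obtain ⟨i, hi⟩ := Subgroup.mem_zpowers_iff.1 h
    have h1 : (c : X) ^ ((p : ℤ) * i - 1) = 1 := by
      rw [zpow_sub_one, mul_inv_eq_one, zpow_mul, zpow_natCast]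
      exact hi
    rw [← orderOf_dvd_iff_zpow_eq_one] at h1
    obtain ⟨l, hl⟩ := IsPGroup.iff_orderOf.1 hX (c : X)
    rw [hl] at h1
    rcases l with _ | l
    · exact hcne ((orderOf_eq_one_iff (x := (c : X))).1 (by simpa using hl))
    · have h2 : (p : ℤ) ∣ (p : ℤ) * i - 1 := dvd_trans ⟨(p : ℤ) ^ l, by push_cast; ring⟩ h1
      have h3 : (p : ℤ) ∣ 1 := by
        have := dvd_sub (dvd_mul_right (p : ℤ) i) h2
        simpa using this
      exact hp.out.one_lt.ne' (Nat.dvd_one.1 (by exact_mod_cast h3))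
  have hX1inv : ∀ a ∈ A, X1.map a.toMonoidHom = X1 := fun a _ => map_eq_of_le fun x hx => by
    obtain ⟨i, rfl⟩ := Subgroup.mem_zpowers_iff.1 hx
    rw [map_zpow, map_pow]
    refine zpow_mem (hsq _ ?_) i
    exact (Subgroup.characteristic_iff_map_eq.1
      (inferInstance : (commutator X).Characteristic) a).le ⟨c, c.2, rfl⟩
  have hY := noInv_quotient hno X1 hX1inv
  set q := QuotientGroup.mk' X1
  have hqD : commutator (X ⧸ X1) = (commutator X).map q := by
    rw [commutator_def, commutator_def, Subgroup.map_commutator,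
      Subgroup.map_top_of_surjective _ (QuotientGroup.mk'_surjective X1)]
  set Y := X ⧸ X1
  set D := commutator Y with hD
  have hDcard : Nat.card D = p := by
    rw [hqD, hgen, MonoidHom.map_zpowers, Nat.card_zpowers]
    refine orderOf_eq_prime ?_ fun h => hcX1 ((QuotientGroup.eq_one_iff _).1 h)
    rw [← map_pow]
    exact (QuotientGroup.eq_one_iff _).2 (hsq _ c.2)
  have hYp : IsPGroup p Y := hX.to_quotient X1
  have hDc : D ≤ Subgroup.center Y := PGroups.le_center_of_card_eq_prime hYp hDcard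
  have hYm : Cfsg.IsMetacyclic Y := BGAppendix.isMetacyclic_quotient hm X1
  set A' := {b : MulAut Y | ∃ a ∈ A, ∀ x, b (q x) = q (a x)}
  have hDinv : ∀ a ∈ A', D.map a.toMonoidHom = D := fun a _ =>
    Subgroup.characteristic_iff_map_eq.1 inferInstance a
  obtain ⟨a', b', hab'⟩ := exists_two_gen (BGAppendix.isMetacyclic_quotient hYm D)
  have hcomm : ∀ x y : Y ⧸ D, x * y = y * x := by
    intro x y
    obtain ⟨x, rfl⟩ := QuotientGroup.mk'_surjective D x
    obtain ⟨y, rfl⟩ := QuotientGroup.mk'_surjective D y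
    rw [← commutatorElement_eq_one_iff_mul_comm, ← map_commutatorElement]
    exact (QuotientGroup.eq_one_iff _).2
      (Subgroup.commutator_mem_commutator (Subgroup.mem_top x) (Subgroup.mem_top y))
  have hne' : Nontrivial (Y ⧸ D) := by
    refine QuotientGroup.nontrivial_iff.2 fun htop => ?_
    haveI : Nontrivial Y := Finite.one_lt_card_iff_nontrivial.1 (by
      have h1 := Subgroup.card_le_card_group D
      have h2 := hp.out.two_le
      omega)
    haveI := hYp.isNilpotent
    exact (Group.IsSolvable.commutator_lt_top_of_nontrivial Y).ne htop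
  obtain ⟨k, hk, hexp, ⟨e⟩⟩ := homocyclic_of_noInv (hYp.to_quotient D) hcomm hab' hne'
    (noInv_quotient hY D hDinv)
  haveI : NeZero (p ^ k) := ⟨pow_ne_zero k hp.out.ne_zero⟩
  have hcard : Nat.card Y = p ^ k * p ^ k * p := by
    rw [Subgroup.card_eq_card_quotient_mul_card_subgroup D, hDcard, Nat.card_congr e.toEquiv,
      Nat.card_prod, Nat.card_congr Multiplicative.toAdd, Nat.card_zmod]
  have hDexp : ∀ g ∈ D, g ^ p = 1 := fun g hg => by
    have := pow_card_eq_one' (G := D) (x := ⟨g, hg⟩)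
    rw [hDcard] at this
    exact congrArg Subtype.val this
  have hcl : ⁅commutator Y, (⊤ : Subgroup Y)⁆ = ⊥ := by
    rw [Subgroup.commutator_eq_bot_iff_le_centralizer, Subgroup.coe_top, Subgroup.centralizer_univ]
    exact hDc
  have hmulpow : ∀ (i : ℕ) (x y : Y), (x * y) ^ p ^ i = x ^ p ^ i * y ^ p ^ i := by
    intro i
    induction i with
    | zero => intro x y; simp
    | succ i ih =>
      intro x y
      rw [pow_succ, pow_mul, pow_mul, pow_mul, ih,
        PGroups.mul_pow_of_small_class (Or.inl ⟨hp2, hcl⟩) hDexp]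
  let f : Y →* Y :=
    { toFun := fun x => x ^ p ^ k
      map_one' := one_pow _
      map_mul' := fun x y => hmulpow k x y }
  have hf : ∀ x, f x = x ^ p ^ k := fun _ => rfl
  have hfD : f.range ≤ D := by
    rintro _ ⟨x, rfl⟩
    rw [← QuotientGroup.eq_one_iff]
    show QuotientGroup.mk' D (f x) = 1
    rw [hf, map_pow, hexp]
  have hnp := not_noInv_of_hom hY f fun a _ x => by rw [hf, hf, map_pow]
  have hftriv : f.range = ⊥ := by
    by_contra hne2
    haveI := (Subgroup.nontrivial_iff_ne_bot _).2 hne2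
    refine hnp (le_antisymm (hDcard ▸ Subgroup.card_le_of_le hfD) ?_)
    exact (hDcard ▸ Nat.le_of_dvd Nat.card_pos (by
      obtain ⟨m, hm0, hm⟩ := (hYp.to_subgroup f.range).nontrivial_iff_card.1 inferInstance
      rw [hm, hDcard]
      exact dvd_pow_self p hm0.ne'))
  have hexpY : ∀ x : Y, x ^ p ^ k = 1 := fun x => by
    have := hftriv.le ⟨x, rfl⟩
    rwa [Subgroup.mem_bot] at this
  obtain ⟨N', hN', hNc', hQc'⟩ := hYm
  have h1 : Nat.card N' ≤ p ^ k := by
    obtain ⟨g, hg⟩ := hNc'.exists_generator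
    rw [← orderOf_eq_card_of_forall_mem_zpowers hg]
    exact Nat.le_of_dvd (pow_pos hp.out.pos k) (orderOf_dvd_of_pow_eq_one (Subtype.ext (hexpY g)))
  have h2 : Nat.card (Y ⧸ N') ≤ p ^ k := by
    obtain ⟨g, hg⟩ := hQc'.exists_generator
    rw [← orderOf_eq_card_of_forall_mem_zpowers hg]
    obtain ⟨g, rfl⟩ := QuotientGroup.mk'_surjective N' g
    exact Nat.le_of_dvd (pow_pos hp.out.pos k)
      (orderOf_dvd_of_pow_eq_one (by rw [← map_pow, hexpY, map_one]))
  have h3 := Nat.mul_le_mul h2 h1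
  rw [← Subgroup.card_eq_card_quotient_mul_card_subgroup N', hcard] at h3
  have h4 := pow_pos hp.out.pos k
  have h5 := hp.out.two_le
  nlinarith [Nat.mul_pos h4 h4]

/-- The Frattini subgroup of a metacyclic p-group has index at most `p ^ 2`. -/
theorem frattini_index_le (hX : IsPGroup p X) (hm : Cfsg.IsMetacyclic X) :
    (frattini X).index ≤ p ^ 2 := by
  obtain ⟨a, b, hab⟩ := exists_two_gen hm
  set q := QuotientGroup.mk' (frattini X)
  have hord : ∀ x, orderOf (q x) ≤ p := fun x => Nat.le_of_dvd hp.out.pos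
    (orderOf_dvd_of_pow_eq_one (by
      rw [← map_pow]; exact (QuotientGroup.eq_one_iff _).2 (PGroups.pow_mem_frattini hX x)))
  have htop : Subgroup.zpowers (q a) ⊔ Subgroup.zpowers (q b) = ⊤ := by
    rw [← MonoidHom.map_zpowers, ← MonoidHom.map_zpowers, ← Subgroup.map_sup, hab,
      Subgroup.map_top_of_surjective _ (QuotientGroup.mk'_surjective _)]
  haveI : (Subgroup.zpowers (q a)).Normal := ⟨fun w hw g => by
    obtain ⟨g, rfl⟩ := QuotientGroup.mk'_surjective (frattini X) g
    obtain ⟨w, rfl⟩ := QuotientGroup.mk'_surjective (frattini X) w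
    have hc : q g * q w = q w * q g := by
      rw [← commutatorElement_eq_one_iff_mul_comm, ← map_commutatorElement]
      exact (QuotientGroup.eq_one_iff _).2 (PGroups.commutatorElement_mem_frattini hX g w)
    rwa [hc, mul_inv_cancel_right]⟩
  rw [Subgroup.index_eq_card, pow_two]
  refine (Nat.card_le_card_of_surjective
    (fun w : Subgroup.zpowers (q a) × Subgroup.zpowers (q b) => (w.1 : X ⧸ frattini X) * w.2)
    fun z => ?_).trans ?_
  · obtain ⟨u, hu, v, hv, rfl⟩ := Subgroup.mem_sup_of_normal_left.1 (htop ▸ Subgroup.mem_top z)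
    exact ⟨(⟨u, hu⟩, ⟨v, hv⟩), rfl⟩
  · rw [Nat.card_prod, Nat.card_zpowers, Nat.card_zpowers]
    exact Nat.mul_le_mul (hord a) (hord b)

/-- A p-group of automorphisms fixes a subgroup of index `p`. -/
theorem not_noInv_of_isPGroup (hX : IsPGroup p X) (hm : Cfsg.IsMetacyclic X) (hnc : ¬ IsCyclic X)
    {A : Subgroup (MulAut X)} (hA : IsPGroup p A) : ¬ NoInv p (A : Set (MulAut X)) := by
  intro hno
  have hidx : (frattini X).index = p ^ 2 :=
    le_antisymm (frattini_index_le hX hm) (PGroups.pow_le_index_frattini hX hnc)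
  have hΦ : ∀ a : MulAut X, (frattini X).map a.toMonoidHom = frattini X := fun a =>
    Subgroup.characteristic_iff_map_eq.1 inferInstance a
  let ρ : A →* MulAut (X ⧸ frattini X) :=
    MonoidHom.mk' (fun a => QuotientGroup.congr _ _ (a : MulAut X) (hΦ a))
      fun a b => MulEquiv.ext fun x => by
        obtain ⟨x, rfl⟩ := QuotientGroup.mk'_surjective (frattini X) x
        rfl
  letI : MulAction A (X ⧸ frattini X) := MulAction.compHom _ ρ
  have hfix : (1 : X ⧸ frattini X) ∈ MulAction.fixedPoints A (X ⧸ frattini X) := fun a => map_one (ρ a)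
  obtain ⟨z, hz, hz1⟩ := hA.exists_fixed_point_of_prime_dvd_card_of_fixed_point (X ⧸ frattini X)
    (by rw [← Subgroup.index_eq_card, hidx]; exact dvd_pow_self p two_ne_zero) hfix
  refine hno ((Subgroup.zpowers z).comap (QuotientGroup.mk' (frattini X))) ?_ fun a ha =>
    map_eq_of_le fun x hx => ?_
  · rw [Subgroup.index_comap_of_surjective _ (QuotientGroup.mk'_surjective _)]
    have h1 := (Subgroup.zpowers z).card_mul_index
    have ho : orderOf z = p := by
      obtain ⟨w, rfl⟩ := QuotientGroup.mk'_surjective (frattini X) z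
      refine orderOf_eq_prime ?_ (Ne.symm hz1)
      rw [← map_pow]
      exact (QuotientGroup.eq_one_iff _).2 (PGroups.pow_mem_frattini hX w)
    rw [Nat.card_zpowers, ho, ← Subgroup.index_eq_card (frattini X), hidx, pow_two] at h1
    exact Nat.eq_of_mul_eq_mul_left hp.out.pos h1
  · obtain ⟨i, hi⟩ := Subgroup.mem_zpowers_iff.1 hx
    refine Subgroup.mem_zpowers_iff.2 ⟨i, ?_⟩
    have h1 : ρ ⟨a, ha⟩ z = z := hz ⟨a, ha⟩
    calc z ^ i = ρ ⟨a, ha⟩ (z ^ i) := by rw [map_zpow, h1]
      _ = _ := by rw [hi]; rfl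

/-- An `A`-invariant chain with cyclic steps up to `M`. -/
def HasChain (A : Set (MulAut X)) (M : Subgroup X) : Prop :=
  ∃ (m : ℕ) (c : Fin (m + 1) → Subgroup X), c 0 = ⊥ ∧ c (Fin.last m) = M ∧
    (∀ i, ∀ a ∈ A, (c i).map a.toMonoidHom = c i) ∧
    ∀ i : Fin m, c i.castSucc ≤ c i.succ ∧ ∃ x : X, c i.succ = c i.castSucc ⊔ Subgroup.zpowers x

theorem hasChain_bot (A : Set (MulAut X)) : HasChain A ⊥ :=
  ⟨0, fun _ => ⊥, rfl, rfl, fun _ a _ => Subgroup.map_bot _, fun i => i.elim0⟩

theorem HasChain.step {A : Set (MulAut X)} {M M' : Subgroup X} (h : HasChain A M)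
    (hinv : ∀ a ∈ A, M'.map a.toMonoidHom = M') (x : X) (hx : M' = M ⊔ Subgroup.zpowers x) :
    HasChain A M' := by
  obtain ⟨m, c, h0, hl, hi, hs⟩ := h
  refine ⟨m + 1, Fin.snoc c M', ?_, by simp, fun i => ?_, fun i => ?_⟩
  · rw [show (0 : Fin (m + 1 + 1)) = Fin.castSucc 0 from rfl, Fin.snoc_castSucc, h0]
  · refine Fin.lastCases ?_ (fun j => ?_) i
    · simpa using hinv
    · simpa using hi j
  · refine Fin.lastCases ?_ (fun j => ?_) i
    · rw [Fin.snoc_castSucc, Fin.succ_last, Fin.snoc_last, hl, hx]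
      exact ⟨le_sup_left, x, rfl⟩
    · rw [Fin.snoc_castSucc, Fin.succ_castSucc, Fin.snoc_castSucc]
      exact hs j

theorem hasChain_of_isCyclic {A : Set (MulAut X)} {M : Subgroup X}
    (hinv : ∀ a ∈ A, M.map a.toMonoidHom = M) (hc : IsCyclic M) : HasChain A M := by
  obtain ⟨g, hg⟩ := hc.exists_generator
  refine (hasChain_bot A).step hinv (g : X) ?_
  rw [bot_sup_eq]
  refine le_antisymm (fun x hx => ?_) (Subgroup.zpowers_le.2 g.2)
  obtain ⟨i, hi⟩ := Subgroup.mem_zpowers_iff.1 (hg ⟨x, hx⟩)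
  exact Subgroup.mem_zpowers_iff.2 ⟨i, by simpa using congrArg Subtype.val hi⟩

theorem hasChain_of_step (hX : IsPGroup p X) (hm : Cfsg.IsMetacyclic X) {A : Set (MulAut X)} :
    ∀ (M P : Subgroup X), M ≤ P → M.relIndex P = p → (∀ a ∈ A, M.map a.toMonoidHom = M) →
      (∀ a ∈ A, P.map a.toMonoidHom = P) → HasChain A M := by
  intro M
  induction hn : Nat.card M using Nat.strong_induction_on generalizing M with
  | _ n ih =>
    intro P hMP hrel hMinv hPinv
    by_cases hMc : IsCyclic M
    · exact hasChain_of_isCyclic hMinv hMc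
    have hPp : IsPGroup p P := hX.to_subgroup P
    have hPc : ¬ IsCyclic P := fun h => hMc (isCyclic_of_injective (Subgroup.inclusion hMP)
      (Subgroup.inclusion_injective hMP))
    have hidx : (frattini P).index = p ^ 2 :=
      le_antisymm (frattini_index_le hPp (BGAppendix.isMetacyclic_subgroup hm P))
        (PGroups.pow_le_index_frattini hPp hPc)
    set T := (frattini P).map P.subtype with hT
    have hTM : T ≤ M := by
      rintro _ ⟨x, hx, rfl⟩
      exact frattini_le_coatom (TwoGroups.isCoatom_of_index_prime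
        (show ((M.subgroupOf P).index).Prime from (hrel.symm ▸ hp.out : (M.relIndex P).Prime))) hx
    have hTinv : ∀ a ∈ A, T.map a.toMonoidHom = T := by
      intro a ha
      have hmemP : ∀ x ∈ P, a x ∈ P := fun x hx => (hPinv a ha).le ⟨x, hx, rfl⟩
      refine map_eq_of_le ?_
      rintro _ ⟨x, hx, rfl⟩
      let r : MulAut P := (a.subgroupMap P).trans (MulEquiv.subgroupCongr (hPinv a ha))
      exact ⟨r x, (Subgroup.characteristic_iff_map_eq.1
        (inferInstance : (frattini P).Characteristic) r).le ⟨x, hx, rfl⟩, rfl⟩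
    have hTP : T ≤ P := hTM.trans hMP
    have hTrel : T.relIndex M = p := by
      have h1 := Subgroup.relIndex_mul_relIndex T M P hTM hMP
      have h2 : T.relIndex P = p ^ 2 := by
        rw [Subgroup.relIndex, Subgroup.subgroupOf, hT,
          Subgroup.comap_map_eq_self_of_injective P.subtype_injective, hidx]
      rw [h2, hrel, pow_two] at h1
      exact Nat.eq_of_mul_eq_mul_right hp.out.pos h1
    have hlt : Nat.card T < n := by
      have h1 := Subgroup.relIndex_mul_relIndex ⊥ T M bot_le hTM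
      rw [Subgroup.relIndex_bot_left, Subgroup.relIndex_bot_left, hTrel, hn] at h1
      rw [← h1]
      exact lt_mul_of_one_lt_right Nat.card_pos hp.out.one_lt
    have hchain := ih _ hlt T rfl M hTM hTrel hTinv hMinv
    obtain ⟨x, hxM, hxT⟩ : ∃ x ∈ M, x ∉ T := by
      by_contra! hh
      rw [Subgroup.relIndex_eq_one.2 hh] at hTrel
      exact hp.out.ne_one hTrel.symm
    refine hchain.step hMinv x (le_antisymm ?_ (sup_le hTM (Subgroup.zpowers_le.2 hxM)))
    have hle : T ⊔ Subgroup.zpowers x ≤ M := sup_le hTM (Subgroup.zpowers_le.2 hxM)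
    have h1 := Subgroup.relIndex_mul_relIndex T (T ⊔ Subgroup.zpowers x) M le_sup_left hle
    rw [hTrel] at h1
    rcases hp.out.eq_one_or_self_of_dvd _ (Dvd.intro_left _ h1) with h2 | h2
    · exact Subgroup.relIndex_eq_one.1 h2
    · exfalso
      rw [h2] at h1
      have h3 : T.relIndex (T ⊔ Subgroup.zpowers x) = 1 :=
        Nat.eq_of_mul_eq_mul_right hp.out.pos (by rw [h1, one_mul])
      exact hxT (Subgroup.relIndex_eq_one.1 h3 (Subgroup.mem_sup_right (Subgroup.mem_zpowers x)))

/-- A metacyclic p-group with an invariant subgroup of index `p` (or cyclic) has a full chain. -/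
theorem hasChain_top (hX : IsPGroup p X) (hm : Cfsg.IsMetacyclic X) {A : Set (MulAut X)}
    (h : IsCyclic X ∨ ¬ NoInv p A) : HasChain A ⊤ := by
  have htop : ∀ a ∈ A, (⊤ : Subgroup X).map a.toMonoidHom = ⊤ := fun a _ =>
    Subgroup.map_top_of_surjective _ a.surjective
  rcases h with h | h
  · exact hasChain_of_isCyclic htop (Subgroup.topEquiv.isCyclic.2 h)
  rw [NoInv] at h
  push Not at h
  obtain ⟨M, hM, hinv⟩ := h
  have hrel : M.relIndex ⊤ = p := by rw [Subgroup.relIndex_top_right, hM]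
  obtain ⟨x, hx⟩ : ∃ x, x ∉ M := by
    by_contra! hh
    rw [Subgroup.index_eq_one.2 ((Subgroup.eq_top_iff' M).2 hh)] at hM
    exact hp.out.ne_one hM.symm
  refine (hasChain_of_step hX hm M ⊤ le_top hrel hinv htop).step htop x (eq_comm.1 ?_)
  by_contra hne
  have hco := TwoGroups.isCoatom_of_index_prime (show M.index.Prime from hM.symm ▸ hp.out)
  exact hne (hco.2 _ (lt_of_le_of_ne le_sup_left fun he =>
    hx (he.symm ▸ Subgroup.mem_sup_right (Subgroup.mem_zpowers x))))

end CfsgLib.TwoGroups.MetaChain
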