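/-
The index of the subgroup generated by the squares in a 2-group of automorphisms of an abelian group of odd order.
-/
import Mathlib
import Cfsg.Prelude.Def_CaseTheorems
import Cfsg.Agent.Lib.TwoGroups.NormalCyclic
import Cfsg.Agent.Lib.TwoGroups.NormalAbelian

set_option autoImplicit false

universe u v

namespace CfsgLib.SquareIndex

variable {G : Type*} [Group G]

/-- The subgroup generated by the squares. -/
def squares (G : Type*) [Group G] : Subgroup G := Subgroup.closure (Set.range fun x : G => x ^ 2)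

theorem sq_mem (x : G) : x ^ 2 ∈ squares G := Subgroup.subset_closure ⟨x, rfl⟩

theorem map_squares_le {H : Type*} [Group H] (f : H →* G) : (squares H).map f ≤ squares G := by
  rw [squares, MonoidHom.map_closure, squares]
  refine Subgroup.closure_mono ?_
  rintro _ ⟨_, ⟨x, rfl⟩, rfl⟩
  exact ⟨f x, (map_pow f x 2).symm⟩

theorem squares_normal : (squares G).Normal :=
  ⟨fun x hx g => map_squares_le (MulAut.conj g).toMonoidHom ⟨x, hx, rfl⟩⟩

theorem index_le_of_subgroup [Finite G] (H : Subgroup G) :
    (squares G).index ≤ H.index * (squares H).index := by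
  calc (squares G).index ≤ ((squares H).map H.subtype).index :=
        Nat.le_of_dvd (Nat.pos_of_ne_zero Subgroup.index_ne_zero_of_finite)
          (Subgroup.index_dvd_of_le (map_squares_le _))
    _ = H.index * (squares H).index := by rw [Subgroup.index_map_subtype, mul_comm]

theorem index_le_of_hom [Finite G] {Q : Type*} [Group Q] [Finite Q] (f : G →* Q) (hf : Function.Surjective f) :
    (squares G).index ≤ (squares Q).index * (squares f.ker).index := by
  have h2 : squares Q = (squares G).map f := by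
    refine le_antisymm ?_ (map_squares_le f)
    rw [squares, Subgroup.closure_le]
    rintro _ ⟨y, rfl⟩
    obtain ⟨x, rfl⟩ := hf y
    exact ⟨x ^ 2, sq_mem x, map_pow f x 2⟩
  have h1 : (squares G).relIndex (squares G ⊔ f.ker) ≤ (squares f.ker).index := by
    haveI := squares_normal (G := G)
    rw [sup_comm, Subgroup.relIndex_sup_right]
    · rw [Subgroup.relIndex, ← Subgroup.comap_subtype]
      refine Nat.le_of_dvd (Nat.pos_of_ne_zero Subgroup.index_ne_zero_of_finite) (Subgroup.index_dvd_of_le ?_)
      rw [← Subgroup.map_le_iff_le_comap]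
      exact map_squares_le _
  calc (squares G).index = (squares G).relIndex (squares G ⊔ f.ker) * (squares G ⊔ f.ker).index :=
        (Subgroup.relIndex_mul_index le_sup_left).symm
    _ ≤ (squares f.ker).index * (squares Q).index := by
        rw [h2, Subgroup.index_map, MonoidHom.range_eq_top.2 hf, Subgroup.index_top, mul_one]
        exact Nat.mul_le_mul_right _ h1
    _ = _ := mul_comm _ _

theorem index_le_two_of_isCyclic [Finite G] [IsCyclic G] : (squares G).index ≤ 2 := by
  obtain ⟨x, hx⟩ := isCyclic_iff_exists_zpowers_eq_top.1 ‹IsCyclic G›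
  have h1 : (Subgroup.zpowers (x ^ 2)).index ≤ 2 := by
    have h2 := Subgroup.card_mul_index (Subgroup.zpowers (x ^ 2))
    rw [Nat.card_zpowers, orderOf_pow, orderOf_eq_card_of_zpowers_eq_top hx] at h2
    have h3 : (Nat.card G).gcd 2 ∣ Nat.card G := Nat.gcd_dvd_left _ _
    have h4 : (Nat.card G).gcd 2 ≤ 2 := Nat.le_of_dvd two_pos (Nat.gcd_dvd_right _ _)
    have h5 : Nat.card G / (Nat.card G).gcd 2 * (Nat.card G).gcd 2 = Nat.card G := Nat.div_mul_cancel h3
    have h6 : 0 < Nat.card G / (Nat.card G).gcd 2 :=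
      Nat.div_pos (Nat.le_of_dvd Nat.card_pos h3) (Nat.gcd_pos_of_pos_left _ Nat.card_pos)
    have h7 := Nat.eq_of_mul_eq_mul_left h6 (h2.trans h5.symm)
    omega
  exact le_trans (Nat.le_of_dvd (Nat.pos_of_ne_zero Subgroup.index_ne_zero_of_finite)
    (Subgroup.index_dvd_of_le (Subgroup.zpowers_le.2 (sq_mem x)))) h1

theorem index_le_four_of_half [Finite G] (x : G) (hx : Nat.card G ≤ 2 * orderOf x) :
    (squares G).index ≤ 4 := by
  have h := index_le_of_subgroup (Subgroup.zpowers x)
  have h1 : (Subgroup.zpowers x).index ≤ 2 := by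
    have h2 := Subgroup.card_mul_index (Subgroup.zpowers x)
    rw [Nat.card_zpowers] at h2
    rw [← h2, mul_comm 2] at hx
    exact Nat.le_of_mul_le_mul_left hx (orderOf_pos x)
  exact h.trans (Nat.mul_le_mul h1 index_le_two_of_isCyclic)

/-- All normal abelian subgroups cyclic: the squares have index at most four. -/
theorem index_le_four_of_normalAbelianCyclic [Finite G] (hG : IsPGroup 2 G)
    (h : CfsgLib.TwoGroups.NormalAbelianCyclic G) : (squares G).index ≤ 4 := by
  haveI : Fact (Nat.Prime 2) := ⟨Nat.prime_two⟩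
  rcases CfsgLib.TwoGroups.isCyclic_or_of_normalAbelianCyclic hG h with hc | ⟨-, ⟨m, -, ⟨e⟩⟩ | ⟨m, -, ⟨e⟩⟩ | hq⟩
  · exact le_trans index_le_two_of_isCyclic (by norm_num)
  · refine index_le_four_of_half (e.symm (DihedralGroup.r 1)) ?_
    rw [MulEquiv.orderOf_eq, DihedralGroup.orderOf_r_one, Nat.card_congr e.toEquiv, DihedralGroup.nat_card]
  · refine index_le_four_of_half (e.symm (QuaternionGroup.a 1)) ?_
    rw [MulEquiv.orderOf_eq, QuaternionGroup.orderOf_a_one, Nat.card_congr e.toEquiv,
      Nat.card_eq_fintype_card, QuaternionGroup.card]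
    exact le_of_eq (by ring)
  · obtain ⟨n, -, hc, x, y, hx, -, -⟩ := hq
    refine index_le_four_of_half x ?_
    rw [hc, hx, pow_succ, mul_comm]

theorem mulAut_isCyclic_of_prime_card {N : Type*} [Group N] (h : (Nat.card N).Prime) :
    IsCyclic (MulAut N) := by
  haveI := Fact.mk h
  haveI : IsCyclic N := isCyclic_of_prime_card (p := Nat.card N) rfl
  haveI : IsCyclic (ZMod (Nat.card N))ˣ := inferInstance
  exact isCyclic_of_surjective (IsCyclic.mulAutMulEquiv N).symm.toMonoidHom
    (IsCyclic.mulAutMulEquiv N).symm.surjective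

section Action

variable {N : Type v} [CommGroup N]

/-- Restriction of an action to an invariant subgroup. -/
def restrict {P : Type u} [Group P] (φ : P →* MulAut N) (W : Subgroup N)
    (hW : ∀ t : P, ∀ w ∈ W, φ t w ∈ W) : P →* MulAut W where
  toFun t :=
    { toFun := fun w => ⟨φ t w, hW t w w.2⟩
      invFun := fun w => ⟨φ t⁻¹ w, hW t⁻¹ w w.2⟩
      left_inv := fun w => Subtype.ext (by
        show φ t⁻¹ (φ t w) = w
        rw [← MulAut.mul_apply, ← map_mul, inv_mul_cancel, map_one, MulAut.one_apply])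
      right_inv := fun w => Subtype.ext (by
        show φ t (φ t⁻¹ w) = w
        rw [← MulAut.mul_apply, ← map_mul, mul_inv_cancel, map_one, MulAut.one_apply])
      map_mul' := fun a b => Subtype.ext (map_mul (φ t) (a : N) b) }
  map_one' := by
    ext w
    show φ 1 w = w
    rw [map_one, MulAut.one_apply]
  map_mul' s t := by
    ext w
    show φ (s * t) w = φ s (φ t w)
    rw [map_mul, MulAut.mul_apply]

theorem restrict_apply {P : Type u} [Group P] (φ : P →* MulAut N) (W : Subgroup N)
    (hW : ∀ t : P, ∀ w ∈ W, φ t w ∈ W) (t : P) (w : W) : (restrict φ W hW t w : N) = φ t w := rfl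

/-- The action on the quotient by an invariant subgroup. -/
def onQuotient {P : Type u} [Group P] (φ : P →* MulAut N) (W : Subgroup N)
    (hW : ∀ t : P, ∀ w ∈ W, φ t w ∈ W) : P →* MulAut (N ⧸ W) where
  toFun t := QuotientGroup.congr W W (φ t) (le_antisymm
    (by rintro _ ⟨w, hw, rfl⟩; exact hW t w hw)
    (fun w hw => ⟨φ t⁻¹ w, hW t⁻¹ w hw, by
      show φ t (φ t⁻¹ w) = w
      rw [← MulAut.mul_apply, ← map_mul, mul_inv_cancel, map_one, MulAut.one_apply]⟩))
  map_one' := by
    ext q
    induction q using QuotientGroup.induction_on with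
    | H x => show ((φ 1 x : N) : N ⧸ W) = x; rw [map_one, MulAut.one_apply]
  map_mul' s t := by
    ext q
    induction q using QuotientGroup.induction_on with
    | H x => show ((φ (s * t) x : N) : N ⧸ W) = (φ s (φ t x) : N); rw [map_mul, MulAut.mul_apply]

/-- The bound on the index of the squares, as a property of a number. -/
def Bound (n D : ℕ) : Prop := 2 * D ≤ n ∨ (n = 3 ∧ D ≤ 2)

theorem Bound.mul {a b x y : ℕ} (hx : Bound a x) (hy : Bound b y) : 2 * (x * y) ≤ a * b := by
  rcases hx with hx | ⟨rfl, hx⟩ <;> rcases hy with hy | ⟨rfl, hy⟩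
  · exact le_trans (by nlinarith) (Nat.mul_le_mul hx hy)
  · calc 2 * (x * y) ≤ 2 * x * 2 := by rw [mul_assoc]; gcongr
      _ ≤ a * 3 := Nat.mul_le_mul hx (by norm_num)
  · calc 2 * (x * y) = x * (2 * y) := by ring
      _ ≤ 3 * b := Nat.mul_le_mul (hx.trans (by norm_num)) hy
  · calc 2 * (x * y) ≤ 2 * (2 * 2) := by gcongr
      _ ≤ 3 * 3 := by norm_num

/-- A faithful action with an invariant proper subgroup. -/
theorem bound_of_invariant {P : Type u} [Group P] [Finite P] [Finite N] (hodd : Odd (Nat.card N))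
    (hP : IsPGroup 2 P) (φ : P →* MulAut N) (hφ : Function.Injective φ) (W : Subgroup N)
    (hWbot : W ≠ ⊥) (hWtop : W ≠ ⊤) (hW : ∀ t : P, ∀ w ∈ W, φ t w ∈ W)
    (ih : ∀ (M : Type v) [CommGroup M] [Finite M], Nat.card M < Nat.card N → Odd (Nat.card M) →
      1 < Nat.card M → ∀ (R : Type u) [Group R] [Finite R], IsPGroup 2 R → ∀ ψ : R →* MulAut M,
        Function.Injective ψ → Bound (Nat.card M) (squares R).index) :
    2 * (squares P).index ≤ Nat.card N := by
  set ρ := restrict φ W hW with hρ
  have hcard := Subgroup.card_mul_index W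
  have hWi : 1 < W.index := Subgroup.one_lt_index_of_ne_top hWtop
  have hW1 : 1 < Nat.card W := Subgroup.one_lt_card_iff_ne_bot W |>.2 hWbot
  have hWodd : Odd (Nat.card W) := hodd.of_dvd_nat W.card_subgroup_dvd_card
  have hQodd : Odd (Nat.card (N ⧸ W)) := hodd.of_dvd_nat W.card_quotient_dvd_card
  have hWlt : Nat.card W < Nat.card N := by rw [← hcard]; exact lt_mul_of_one_lt_right (by omega) hWi
  have hQlt : Nat.card (N ⧸ W) < Nat.card N := by
    rw [← Subgroup.index_eq_card, ← hcard]
    exact lt_mul_of_one_lt_left (by omega) hW1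
  have hker : ∀ t : P, ρ t = 1 → ∀ w ∈ W, φ t w = w := fun t ht w hw => by
    have := congrArg (fun f : MulAut W => (f ⟨w, hw⟩ : N)) ht
    simpa [hρ, restrict_apply] using this
  let ψ : ρ.ker →* MulAut (N ⧸ W) := (onQuotient φ W hW).comp ρ.ker.subtype
  have hψ : Function.Injective ψ := by
    refine (injective_iff_map_eq_one ψ).2 fun t ht => Subtype.ext (hφ ?_)
    rw [OneMemClass.coe_one, map_one]
    ext x
    set d := x⁻¹ * φ t x with hd
    have hdW : d ∈ W := by
      rw [hd]
      refine QuotientGroup.eq.1 ?_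
      exact (congrArg (fun f : MulAut (N ⧸ W) => f (x : N ⧸ W)) ht).symm
    have hfix : φ t d = d := hker t t.2 d hdW
    have hxd : φ t x = x * d := by rw [hd, mul_inv_cancel_left]
    have hk : ∀ k : ℕ, φ ((t : P) ^ k) x = x * d ^ k := by
      intro k
      induction k with
      | zero => simp
      | succ k ihk => rw [pow_succ', map_mul, MulAut.mul_apply, ihk, map_mul, map_pow, hxd, hfix, pow_succ',
          mul_assoc]
    obtain ⟨m, hm⟩ := hP (t : P)
    have h1 := hk (2 ^ m)
    rw [hm, map_one, MulAut.one_apply, left_eq_mul] at h1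
    have hd1 : d = 1 := by
      rw [← orderOf_eq_one_iff]
      have h2 : orderOf d ∣ 2 ^ m := orderOf_dvd_of_pow_eq_one h1
      obtain ⟨i, -, hi⟩ := (Nat.dvd_prime_pow Nat.prime_two).1 h2
      rcases i with _ | i
      · exact hi.trans (pow_zero 2)
      · exfalso
        have h3 := hodd.of_dvd_nat (orderOf_dvd_natCard d)
        rw [hi, pow_succ', Nat.odd_iff] at h3
        omega
    rw [hxd, hd1, mul_one]
    rfl
  have b1 := ih W hWlt hWodd hW1 (P ⧸ ρ.ker) (hP.to_quotient _) (QuotientGroup.kerLift ρ)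
    (QuotientGroup.kerLift_injective ρ)
  have b2 := ih (N ⧸ W) hQlt hQodd (by rw [← Subgroup.index_eq_card]; exact hWi) ρ.ker (hP.to_subgroup _) ψ hψ
  have h3 := index_le_of_hom (QuotientGroup.mk' ρ.ker) (QuotientGroup.mk'_surjective _)
  rw [QuotientGroup.ker_mk'] at h3
  calc 2 * (squares P).index ≤ 2 * ((squares (P ⧸ ρ.ker)).index * (squares ρ.ker).index) := by gcongr
    _ ≤ Nat.card W * Nat.card (N ⧸ W) := b1.mul b2
    _ = Nat.card N := by rw [← Subgroup.index_eq_card, hcard]

/-- Main induction. -/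
theorem bound (n : ℕ) : ∀ (N : Type v) [CommGroup N] [Finite N], Nat.card N = n → Odd (Nat.card N) →
    1 < Nat.card N → ∀ (P : Type u) [Group P] [Finite P], IsPGroup 2 P → ∀ φ : P →* MulAut N,
      Function.Injective φ → Bound (Nat.card N) (squares P).index := by
  induction n using Nat.strong_induction_on with
  | _ n IH =>
    intro N _ _ hn hodd h1 P _ _ hP φ hφ
    haveI : Fact (Nat.Prime 2) := ⟨Nat.prime_two⟩
    have ih : ∀ (M : Type v) [CommGroup M] [Finite M], Nat.card M < Nat.card N → Odd (Nat.card M) →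
        1 < Nat.card M → ∀ (R : Type u) [Group R] [Finite R], IsPGroup 2 R → ∀ ψ : R →* MulAut M,
          Function.Injective ψ → Bound (Nat.card M) (squares R).index :=
      fun M _ _ hM => IH _ (hn ▸ hM) M rfl
    by_cases hred : ∃ W : Subgroup N, W ≠ ⊥ ∧ W ≠ ⊤ ∧ ∀ t : P, ∀ w ∈ W, φ t w ∈ W
    · obtain ⟨W, hb, ht, hW⟩ := hred
      exact Or.inl (bound_of_invariant hodd hP φ hφ W hb ht hW ih)
    push Not at hred
    by_cases hsmall : (Nat.card N).Prime
    · haveI := mulAut_isCyclic_of_prime_card hsmall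
      haveI : IsCyclic P := isCyclic_of_injective φ hφ
      have hle : (squares P).index ≤ 2 := index_le_two_of_isCyclic
      obtain ⟨r, hr⟩ := hodd
      by_cases h3 : Nat.card N = 3
      · exact Or.inr ⟨h3, hle⟩
      · exact Or.inl (by omega)
    have h9 : 9 ≤ Nat.card N := by
      by_contra h
      obtain ⟨r, hr⟩ := hodd
      apply hsmall
      rcases (show Nat.card N = 3 ∨ Nat.card N = 5 ∨ Nat.card N = 7 by omega) with h | h | h <;> rw [h] <;>
        norm_num
    by_cases hNAC : CfsgLib.TwoGroups.NormalAbelianCyclic P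
    · have := index_le_four_of_normalAbelianCyclic hP hNAC
      exact Or.inl (by omega)
    -- a normal non-cyclic abelian subgroup
    obtain ⟨A, hAn, hAc, hAnc⟩ : ∃ A : Subgroup P, A.Normal ∧ IsMulCommutative A ∧ ¬ IsCyclic A := by
      unfold CfsgLib.TwoGroups.NormalAbelianCyclic at hNAC
      push Not at hNAC
      exact hNAC
    letI : CommGroup A := { (inferInstance : Group A) with mul_comm := fun a b => hAc.is_comm.comm a b }
    have hAcomm : ∀ a ∈ A, ∀ b ∈ A, Commute a b := fun a ha b hb =>
      congrArg Subtype.val (hAc.is_comm.comm (⟨a, ha⟩ : A) ⟨b, hb⟩)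
    let A₁ : Subgroup P :=
      { carrier := {a | a ∈ A ∧ a ^ 2 = 1}
        one_mem' := ⟨one_mem A, one_pow 2⟩
        mul_mem' := fun {a b} ha hb => ⟨mul_mem ha.1 hb.1, by
          rw [(hAcomm a ha.1 b hb.1).mul_pow, ha.2, hb.2, mul_one]⟩
        inv_mem' := fun {a} ha => ⟨inv_mem ha.1, by rw [inv_pow, ha.2, inv_one]⟩ }
    haveI hA₁ : A₁.Normal := ⟨fun a ha t => ⟨hAn.conj_mem a ha.1 t, by
      rw [conj_pow, ha.2, mul_one, mul_inv_cancel]⟩⟩
    let inv : MulAut N := MulEquiv.inv N
    let B : Subgroup P :=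
      { carrier := {a | a ∈ A₁ ∧ (φ a = 1 ∨ φ a = inv)}
        one_mem' := ⟨one_mem _, Or.inl (map_one φ)⟩
        mul_mem' := fun {a b} ha hb => ⟨mul_mem ha.1 hb.1, by
          have hii : inv * inv = 1 := by ext x; exact inv_inv x
          rcases ha.2 with h | h <;> rcases hb.2 with h' | h' <;> rw [map_mul, h, h']
          · exact Or.inl (one_mul _)
          · exact Or.inr (one_mul _)
          · exact Or.inr (mul_one _)
          · exact Or.inl hii⟩
        inv_mem' := fun {a} ha => by
          rw [Set.mem_setOf_eq, show a⁻¹ = a from inv_eq_of_mul_eq_one_left (by rw [← pow_two]; exact ha.1.2)]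
          exact ha }
    have hinvc : ∀ f : MulAut N, f * inv * f⁻¹ = inv := fun f => by
      ext x
      show f ((f.symm x)⁻¹) = x⁻¹
      rw [map_inv, MulEquiv.apply_symm_apply]
    haveI hBn : B.Normal := ⟨fun a ha t => ⟨hA₁.conj_mem a ha.1 t, by
      rcases ha.2 with h | h <;> rw [map_mul, map_mul, map_inv, h]
      · exact Or.inl (by group)
      · exact Or.inr (hinvc _)⟩⟩
    have hne : ¬ A₁ ≤ B := by
      intro hle
      apply hAnc
      refine CfsgLib.TwoGroups.isCyclic_of_uniqueOrderP_comm (hP.to_subgroup A) ?_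
      intro a b ha hb
      have key : ∀ c : A, orderOf c = 2 → φ c = inv := by
        intro c hc
        have hmem : (c : P) ∈ A₁ := ⟨c.2, by
          rw [← SubmonoidClass.coe_pow, ← hc, pow_orderOf_eq_one]; rfl⟩
        rcases (hle hmem).2 with h | h
        · exfalso
          have : c = 1 := Subtype.ext (hφ (by rw [h, OneMemClass.coe_one, map_one]))
          rw [this, orderOf_one] at hc
          norm_num at hc
        · exact h
      have : a = b := Subtype.ext (hφ ((key a ha).trans (key b hb).symm))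
      exact this ▸ Subgroup.mem_zpowers a
    obtain ⟨e, heA, heB, hecomm⟩ : ∃ e ∈ A₁, e ∉ B ∧ ∀ t : P, t * e * t⁻¹ * e⁻¹ ∈ B := by
      have hmap : A₁.map (QuotientGroup.mk' B) ≠ ⊥ := by
        rwa [Ne, Subgroup.map_eq_bot_iff, QuotientGroup.ker_mk']
      haveI := hA₁.map (QuotientGroup.mk' B) (QuotientGroup.mk'_surjective B)
      obtain ⟨z, ⟨e, he, rfl⟩, hz1, hzc⟩ :=
        CfsgLib.TwoGroups.exists_mem_center_of_normal (hP.to_quotient B) hmap
      refine ⟨e, he, fun h => hz1 ((QuotientGroup.eq_one_iff e).2 h), fun t => (QuotientGroup.eq_one_iff _).1 ?_⟩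
      show QuotientGroup.mk' B (t * e * t⁻¹ * e⁻¹) = 1
      rw [map_mul, map_mul, map_mul, map_inv, map_inv, Subgroup.mem_center_iff.1 hzc (QuotientGroup.mk' B t)]
      group
    have he2 : e * e = 1 := by rw [← pow_two]; exact heA.2
    have he1 : φ e ≠ 1 := fun h => heB ⟨heA, Or.inl h⟩
    have hei : φ e ≠ inv := fun h => heB ⟨heA, Or.inr h⟩
    have hinvol : ∀ x, φ e (φ e x) = x := fun x => by
      rw [← MulAut.mul_apply, ← map_mul, he2, map_one, MulAut.one_apply]
    have hconj : ∀ t : P, φ (t * e * t⁻¹) = φ e ∨ φ (t * e * t⁻¹) = inv * φ e := by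
      intro t
      rcases (hecomm t).2 with h | h
      · left
        rw [map_mul _ (t * e * t⁻¹), map_inv, mul_inv_eq_one] at h
        exact h
      · right
        rw [map_mul _ (t * e * t⁻¹), map_inv, mul_inv_eq_iff_eq_mul] at h
        exact h
    let Np : Subgroup N :=
      { carrier := {x | φ e x = x}
        one_mem' := map_one _
        mul_mem' := fun {x y} hx hy => by simp only [Set.mem_setOf_eq] at *; rw [map_mul, hx, hy]
        inv_mem' := fun {x} hx => by simp only [Set.mem_setOf_eq] at *; rw [map_inv, hx] }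
    let Nm : Subgroup N :=
      { carrier := {x | φ e x = x⁻¹}
        one_mem' := by simp
        mul_mem' := fun {x y} hx hy => by
          simp only [Set.mem_setOf_eq] at *; rw [map_mul, hx, hy, mul_inv]
        inv_mem' := fun {x} hx => by simp only [Set.mem_setOf_eq] at *; rw [map_inv, hx] }
    have hinf : ∀ x, x ∈ Np → x ∈ Nm → x = 1 := by
      intro x hp hm
      have h2 : x ^ 2 = 1 := by
        have h' : x = x⁻¹ := (hp : φ e x = x).symm.trans hm
        rw [pow_two]
        exact eq_inv_iff_mul_eq_one.1 h'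
      rcases (Nat.dvd_prime Nat.prime_two).1 (orderOf_dvd_of_pow_eq_one h2) with h | h
      · exact orderOf_eq_one_iff.1 h
      · have h3 := hodd.of_dvd_nat (orderOf_dvd_natCard x)
        rw [h] at h3
        exact absurd h3 (by decide)
    have hdec : ∀ x : N, ∃ p ∈ Np, ∃ m ∈ Nm, p * m = x := by
      intro x
      have hc : (Nat.card N).Coprime 2 := Nat.Coprime.symm (Nat.coprime_two_left.2 hodd)
      obtain ⟨y, hy⟩ := (powCoprime hc).surjective x
      have hy' : y ^ 2 = x := hy
      refine ⟨y * φ e y, ?_, y * (φ e y)⁻¹, ?_, ?_⟩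
      · show φ e (y * φ e y) = y * φ e y
        rw [map_mul, hinvol, mul_comm]
      · show φ e (y * (φ e y)⁻¹) = (y * (φ e y)⁻¹)⁻¹
        rw [map_mul, map_inv, hinvol, mul_inv, inv_inv, mul_comm]
      · rw [mul_mul_mul_comm, mul_inv_cancel, mul_one, ← pow_two, hy']
    have hpne : Np ≠ ⊥ := by
      intro h
      apply hei
      ext x
      obtain ⟨p, hp, m, hm, rfl⟩ := hdec x
      rw [h, Subgroup.mem_bot] at hp
      subst hp
      rw [one_mul]
      exact hm
    have hmne : Nm ≠ ⊥ := by
      intro h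
      apply he1
      ext x
      obtain ⟨p, hp, m, hm, rfl⟩ := hdec x
      rw [h, Subgroup.mem_bot] at hm
      subst hm
      rw [mul_one]
      exact hp
    have hptop : Np ≠ ⊤ := by
      intro h
      apply he1
      ext x
      exact (h ▸ Subgroup.mem_top x : x ∈ Np)
    have hswap : ∀ t : P, ∀ x, φ (t * e * t⁻¹) (φ t x) = φ t (φ e x) := fun t x => by
      rw [← MulAut.mul_apply, ← map_mul, inv_mul_cancel_right, map_mul, MulAut.mul_apply]
    set M := Subgroup.centralizer ({e} : Set P) with hM
    have hMiff : ∀ t, t ∈ M ↔ φ (t * e * t⁻¹) = φ e := by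
      intro t
      rw [Subgroup.mem_centralizer_singleton_iff, hφ.eq_iff, mul_inv_eq_iff_eq_mul]
    have hMinv : ∀ t, t ∈ M → ∀ w, (w ∈ Np → φ t w ∈ Np) ∧ (w ∈ Nm → φ t w ∈ Nm) := by
      intro t ht w
      have h := hswap t w
      rw [(hMiff t).1 ht] at h
      constructor
      · intro hw
        show φ e (φ t w) = φ t w
        rw [h, show φ e w = w from hw]
      · intro hw
        show φ e (φ t w) = (φ t w)⁻¹
        rw [h, show φ e w = w⁻¹ from hw, map_inv]
    obtain ⟨t₀, ht₀⟩ : ∃ t₀, t₀ ∉ M := by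
      by_contra! hall
      obtain ⟨t, w, hw, hnot⟩ := hred Np hpne hptop
      exact hnot ((hMinv t (hall t) w).1 hw)
    have hflip : ∀ t, t ∉ M → φ (t * e * t⁻¹) = inv * φ e := fun t ht =>
      (hconj t).resolve_left fun h => ht ((hMiff t).2 h)
    have hMidx : M.index = 2 := by
      rw [Subgroup.index_eq_two_iff]
      refine ⟨t₀, fun b => ?_⟩
      by_cases hb : b ∈ M
      · exact Or.inr ⟨hb, fun h => ht₀ ((Subgroup.mul_mem_cancel_left _ hb).1 h)⟩
      refine Or.inl ⟨(hMiff _).2 ?_, hb⟩
      have h2 : φ (b * t₀ * e * (b * t₀)⁻¹) = φ b * φ (t₀ * e * t₀⁻¹) * (φ b)⁻¹ := by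
        rw [← map_inv, ← map_mul, ← map_mul]; congr 1; group
      rw [h2, hflip t₀ ht₀, show φ b * (inv * φ e) * (φ b)⁻¹ =
        (φ b * inv * (φ b)⁻¹) * (φ b * φ e * (φ b)⁻¹) by group, hinvc, ← map_inv, ← map_mul, ← map_mul,
        hflip b hb, ← mul_assoc]
      ext x
      exact inv_inv _
    -- the two eigen-subgroups have the same order
    have hcardeq : Nat.card Np = Nat.card Nm := by
      have key : ∀ t, t ∉ M → ∀ w, (w ∈ Np → φ t w ∈ Nm) ∧ (w ∈ Nm → φ t w ∈ Np) := by
        intro t ht w
        have h := hswap t w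
        rw [hflip t ht] at h
        have h' : (φ e (φ t w))⁻¹ = φ t (φ e w) := h
        constructor
        · intro hw
          show φ e (φ t w) = (φ t w)⁻¹
          rw [show φ e w = w from hw] at h'
          exact inv_eq_iff_eq_inv.1 h'
        · intro hw
          show φ e (φ t w) = φ t w
          rw [show φ e w = w⁻¹ from hw, map_inv] at h'
          exact inv_injective h'
      apply le_antisymm
      · exact Nat.card_le_card_of_injective (fun w : Np => (⟨φ t₀ w, (key t₀ ht₀ w).1 w.2⟩ : Nm))
          fun a b h => Subtype.ext ((φ t₀).injective (congrArg Subtype.val h))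
      · exact Nat.card_le_card_of_injective (fun w : Nm => (⟨φ t₀ w, (key t₀ ht₀ w).2 w.2⟩ : Np))
          fun a b h => Subtype.ext ((φ t₀).injective (congrArg Subtype.val h))
    set a := Nat.card Np with ha
    have hNa : Nat.card N = a * a := by
      conv_rhs => arg 2; rw [hcardeq]
      rw [ha, ← Nat.card_prod]
      refine (Nat.card_congr (Equiv.ofBijective (fun q : Np × Nm => (q.1 : N) * q.2) ⟨?_, ?_⟩)).symm
      · rintro ⟨p, m⟩ ⟨p', m'⟩ h
        simp only at h
        have hk : (p : N)⁻¹ * p' = m * (m' : N)⁻¹ := by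
          rw [inv_mul_eq_iff_eq_mul, ← mul_assoc, h, mul_inv_cancel_right]
        have h1 := hinf _ (mul_mem (inv_mem p.2) p'.2) (hk ▸ mul_mem m.2 (inv_mem m'.2))
        have h2 : p = p' := Subtype.ext (inv_mul_eq_one.1 h1)
        subst h2
        exact Prod.ext rfl (Subtype.ext (mul_left_cancel h))
      · intro x
        obtain ⟨p, hp, m, hm, rfl⟩ := hdec x
        exact ⟨(⟨p, hp⟩, ⟨m, hm⟩), rfl⟩
    have hP2 := index_le_of_subgroup M
    rw [hMidx] at hP2
    -- the factor bounds
    let f₁ : M →* MulAut Np := restrict (φ.comp M.subtype) Np fun t w hw => (hMinv t t.2 w).1 hw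
    let f₂ : M →* MulAut Nm := restrict (φ.comp M.subtype) Nm fun t w hw => (hMinv t t.2 w).2 hw
    have hfaith : ∀ t : M, f₁ t = 1 → f₂ t = 1 → t = 1 := by
      intro t h₁ h₂
      refine Subtype.ext (hφ ?_)
      rw [OneMemClass.coe_one, map_one]
      ext x
      obtain ⟨p, hp, m, hm, rfl⟩ := hdec x
      have e1 : φ t p = p := congrArg (fun g : MulAut Np => (g ⟨p, hp⟩ : N)) h₁
      have e2 : φ t m = m := congrArg (fun g : MulAut Nm => (g ⟨m, hm⟩ : N)) h₂
      rw [map_mul, e1, e2]
      rfl
    have ha1 : 1 < a := (Subgroup.one_lt_card_iff_ne_bot Np).2 hpne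
    have haodd : Odd a := hodd.of_dvd_nat Np.card_subgroup_dvd_card
    have haN : a < Nat.card N := by rw [hNa]; exact lt_mul_of_one_lt_right (by omega) ha1
    have b1 := ih Np haN haodd ha1 (M ⧸ f₁.ker) ((hP.to_subgroup M).to_quotient _)
      (QuotientGroup.kerLift f₁) (QuotientGroup.kerLift_injective f₁)
    have b2 := ih Nm (hcardeq ▸ haN) (hcardeq ▸ haodd) (hcardeq ▸ ha1) f₁.ker
      ((hP.to_subgroup M).to_subgroup _) (f₂.comp f₁.ker.subtype) (by
        refine (injective_iff_map_eq_one _).2 fun t ht => Subtype.ext (hfaith t t.2 ht))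
    rw [← hcardeq] at b2
    rw [← ha] at b1
    have h3 := index_le_of_hom (QuotientGroup.mk' f₁.ker) (QuotientGroup.mk'_surjective _)
    rw [QuotientGroup.ker_mk'] at h3
    by_cases ha3 : a = 3
    swap
    · replace b1 := b1.resolve_right fun h => ha3 h.1
      replace b2 := b2.resolve_right fun h => ha3 h.1
      left
      rw [hNa]
      calc 2 * (squares P).index ≤ 2 * (2 * ((squares (M ⧸ f₁.ker)).index * (squares f₁.ker).index)) :=
            Nat.mul_le_mul_left 2 (hP2.trans (Nat.mul_le_mul_left 2 h3))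
        _ = (2 * (squares (M ⧸ f₁.ker)).index) * (2 * (squares f₁.ker).index) := by ring
        _ ≤ a * a := Nat.mul_le_mul b1 b2
    · -- two factors of order three: a group of order at most eight, not elementary abelian
      left
      have hN9 : Nat.card N = 9 := by rw [hNa, ha3]
      have hAut : ∀ (W : Subgroup N), Nat.card W = 3 → Nat.card (MulAut W) = 2 := fun W hW => by
        haveI : Fact (Nat.Prime 3) := ⟨by norm_num⟩
        haveI : IsCyclic W := isCyclic_of_prime_card (p := 3) hW
        rw [IsCyclic.card_mulAut, hW, Nat.totient_prime (by norm_num)]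
      have hM4 : Nat.card M ≤ 4 := by
        refine le_trans (Nat.card_le_card_of_injective (fun t => (f₁ t, f₂ t)) fun s t h => ?_) ?_
        · simp only [Prod.mk.injEq] at h
          refine inv_mul_eq_one.1 (hfaith (s⁻¹ * t) ?_ ?_)
          · rw [map_mul, map_inv, h.1, inv_mul_cancel]
          · rw [map_mul, map_inv, h.2, inv_mul_cancel]
        · rw [Nat.card_prod, hAut Np (ha.symm.trans ha3), hAut Nm (hcardeq.symm.trans ha3)]
      have hP8 : Nat.card P ≤ 8 := by rw [← M.card_mul_index, hMidx]; omega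
      have hS : squares P ≠ ⊥ := by
        intro hbot
        apply ht₀
        have hsq : ∀ x : P, x * x = 1 := fun x => by
          rw [← pow_two]; exact Subgroup.mem_bot.1 (hbot ▸ sq_mem x)
        rw [hM, Subgroup.mem_centralizer_singleton_iff]
        have hi : ∀ x : P, x⁻¹ = x := fun x => inv_eq_of_mul_eq_one_left (hsq x)
        calc t₀ * e = (t₀ * e)⁻¹ := (hi _).symm
          _ = e * t₀ := by rw [mul_inv_rev, hi, hi]
      have h2 : 2 ≤ Nat.card (squares P) := (Subgroup.one_lt_card_iff_ne_bot _).2 hS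
      have h4 := (squares P).card_mul_index
      rw [hN9]
      have : 2 * (squares P).index ≤ 8 := by
        calc 2 * (squares P).index ≤ Nat.card (squares P) * (squares P).index := Nat.mul_le_mul_right _ h2
          _ ≤ 8 := h4 ▸ hP8
      omega

end Action

end CfsgLib.SquareIndex
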