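import Cfsg.Agent.Lib.TwoGroups.WreathPair

/-!
Explicit models of `Q₈ wr 2` and `D₈ wr 2` in permutations of eight points, in `Sp₄(3)` and in
`O₆⁻(2)`.
-/

set_option autoImplicit false
set_option maxRecDepth 100000

namespace CfsgLib.TwoGroups.WreathModels

open Equiv CfsgLib.TwoGroups.WreathPair

/-! ### Permutations -/

section PermQuaternion

open QuaternionGroup

local notation "Q8" => QuaternionGroup 2

/-- A numbering of the quaternion group. -/
def num : Q8 → Fin 8
  | .a i => ⟨i.val, lt_of_lt_of_le (ZMod.val_lt i) (by norm_num)⟩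
  | .xa i => ⟨4 + i.val, by have := ZMod.val_lt i; omega⟩

/-- The inverse numbering. -/
def unnum (k : Fin 8) : Q8 :=
  if k.val < 4 then .a (k.val : ZMod (2 * 2)) else .xa ((k.val - 4 : ℕ) : ZMod (2 * 2))

/-- The numbering as an equivalence. -/
def numEquiv : Q8 ≃ Fin 8 := ⟨num, unnum, by decide, by decide⟩

/-- The twisted inversion. -/
def twist : Equiv.Perm (Fin 8) := Equiv.swap 1 6 * Equiv.swap 3 4

/-- Left translations. -/
def leftPerm : Q8 →* Equiv.Perm (Fin 8) where
  toFun a := numEquiv.permCongr (Equiv.mulLeft a)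
  map_one' := by ext k; simp [Equiv.permCongr_apply]
  map_mul' a b := by ext k; simp [Equiv.permCongr_apply]

theorem twist_sq : twist * twist = 1 := by decide

theorem left_commute : ∀ (a b : Q8) (k : Fin 8),
    leftPerm a ((twist * leftPerm b * twist) k) = (twist * leftPerm b * twist) (leftPerm a k) := by
  decide

/-- `Q₈ wr 2` on eight points. -/
def permQ : Wr Q8 →* Equiv.Perm (Fin 8) :=
  wrHom leftPerm twist twist_sq fun a b => Equiv.ext fun k => left_commute a b k

theorem sign_leftPerm : ∀ a : Q8, Equiv.Perm.sign (leftPerm a) = 1 := by decide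

theorem sign_twist : Equiv.Perm.sign twist = 1 := by decide

theorem permQ_even (w : Wr Q8) : Equiv.Perm.sign (permQ w) = 1 := by
  refine (wrHom_mem_ker_iff (P := fun g => Equiv.Perm.sign g = 1) (Q := fun _ => True)
    _ _ _ _ (fun a b => iff_of_true ?_ trivial) (fun a b => iff_of_true ?_ trivial) w).2 trivial <;>
    simp [map_mul, sign_leftPerm, sign_twist]

/-- The elements of the kernels. -/
def InKer (w : Wr Q8) : Prop := w.right = 1 ∧ w.left.1 = w.left.2 ∧ (w.left.1 = 1 ∨ w.left.1 = a 2)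

theorem permQ_ker₀ : ∀ a b : Q8, (∀ k : Fin 8, (leftPerm a * (twist * leftPerm b * twist)) k = k) ↔
    (a = b ∧ (a = 1 ∨ a = QuaternionGroup.a 2)) := by
  decide

theorem permQ_ker₁ : ∀ a b : Q8,
    ¬ ∀ k : Fin 8, (leftPerm a * (twist * leftPerm b * twist) * twist) k = k := by
  decide

theorem permQ_eq_one_iff (w : Wr Q8) : permQ w = 1 ↔ InKer w :=
  wrHom_mem_ker_iff (P := fun g => g = 1) (Q := InKer) _ _ _ _
    (fun x y => Equiv.ext_iff.trans <| (permQ_ker₀ x y).trans
      ⟨fun h => ⟨rfl, h⟩, fun h => h.2⟩)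
    (fun x y => iff_of_false (fun e => permQ_ker₁ x y (Equiv.ext_iff.1 e))
      (fun h => absurd h.1 (by decide : (Multiplicative.ofAdd (1 : ZMod 2)) ≠ 1))) w

end PermQuaternion

/-! ### `Sp₄(3)` -/

section Symplectic

open Matrix

local notation "Q8" => QuaternionGroup 2
local notation "M4" => Matrix (Fin 2 ⊕ Fin 2) (Fin 2 ⊕ Fin 2) (ZMod 3)

/-- The quaternion group in `SL₂(3)`. -/
def qMat : Q8 → Matrix (Fin 2) (Fin 2) (ZMod 3)
  | .a i => (!![0, -1; 1, 0] : Matrix (Fin 2) (Fin 2) (ZMod 3)) ^ i.val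
  | .xa i => !![1, 1; 1, -1] * (!![0, -1; 1, 0] : Matrix (Fin 2) (Fin 2) (ZMod 3)) ^ i.val

/-- A matrix of the first hyperbolic plane extended by the identity. -/
def big (A : Matrix (Fin 2) (Fin 2) (ZMod 3)) : M4 :=
  fromBlocks !![A 0 0, 0; 0, 1] !![A 0 1, 0; 0, 0] !![A 1 0, 0; 0, 0] !![A 1 1, 0; 0, 1]

/-- Exchange of the two planes. -/
def planeSwap : M4 := fromBlocks !![0, 1; 1, 0] 0 0 !![0, 1; 1, 0]

theorem big_mem : ∀ a : Q8, big (qMat a) * J (Fin 2) (ZMod 3) * (big (qMat a))ᵀ = J (Fin 2) (ZMod 3) := by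
  decide

theorem planeSwap_mem : planeSwap * J (Fin 2) (ZMod 3) * planeSwapᵀ = J (Fin 2) (ZMod 3) := by
  decide

theorem big_one : big (qMat 1) = 1 := by decide

theorem big_mul : ∀ a b : Q8, big (qMat (a * b)) = big (qMat a) * big (qMat b) := by decide

theorem planeSwap_sq : planeSwap * planeSwap = 1 := by decide

theorem big_commute : ∀ a b : Q8, big (qMat a) * (planeSwap * big (qMat b) * planeSwap) =
    planeSwap * big (qMat b) * planeSwap * big (qMat a) := by decide

/-- The quaternion group in `Sp₄(3)`. -/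
def bigHom : Q8 →* Matrix.symplecticGroup (Fin 2) (ZMod 3) where
  toFun a := ⟨big (qMat a), SymplecticGroup.mem_iff.2 (big_mem a)⟩
  map_one' := Subtype.ext big_one
  map_mul' a b := Subtype.ext (big_mul a b)

/-- The exchange as an element of `Sp₄(3)`. -/
def swapSp : Matrix.symplecticGroup (Fin 2) (ZMod 3) :=
  ⟨planeSwap, SymplecticGroup.mem_iff.2 planeSwap_mem⟩

/-- `Q₈ wr 2` in `Sp₄(3)`. -/
def spQ : Wr Q8 →* Matrix.symplecticGroup (Fin 2) (ZMod 3) :=
  wrHom bigHom swapSp (Subtype.ext planeSwap_sq) fun a b => Subtype.ext (big_commute a b)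

theorem spQ_ker₀ : ∀ a b : Q8, (big (qMat a) * (planeSwap * big (qMat b) * planeSwap) = 1 ∨
    big (qMat a) * (planeSwap * big (qMat b) * planeSwap) = -1) ↔
    (a = b ∧ (a = 1 ∨ a = QuaternionGroup.a 2)) := by
  decide

theorem spQ_ker₁ : ∀ a b : Q8, ¬ (big (qMat a) * (planeSwap * big (qMat b) * planeSwap) * planeSwap = 1 ∨
    big (qMat a) * (planeSwap * big (qMat b) * planeSwap) * planeSwap = -1) := by
  decide

theorem spQ_scalar_iff (w : Wr Q8) :
    (((spQ w : Matrix.symplecticGroup (Fin 2) (ZMod 3)) : M4) = 1 ∨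
      ((spQ w : Matrix.symplecticGroup (Fin 2) (ZMod 3)) : M4) = -1) ↔ InKer w := by
  have hb : ∀ x : Q8, ((bigHom x : Matrix.symplecticGroup (Fin 2) (ZMod 3)) : M4) = big (qMat x) :=
    fun x => rfl
  have hs : ((swapSp : Matrix.symplecticGroup (Fin 2) (ZMod 3)) : M4) = planeSwap := rfl
  refine wrHom_mem_ker_iff (P := fun g : Matrix.symplecticGroup (Fin 2) (ZMod 3) =>
      ((g : M4) = 1 ∨ (g : M4) = -1)) (Q := InKer) _ _ _ _ (fun x y => ?_) (fun x y => ?_) w
  · simp only [Submonoid.coe_mul, hb, hs]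
    exact (spQ_ker₀ x y).trans ⟨fun h => ⟨rfl, h⟩, fun h => h.2⟩
  · simp only [Submonoid.coe_mul, hb, hs]
    exact iff_of_false (spQ_ker₁ x y)
      (fun h => absurd h.1 (by decide : (Multiplicative.ofAdd (1 : ZMod 2)) ≠ 1))

end Symplectic

/-! ### `D₈ wr 2` on eight points -/

section PermDihedral

local notation "D8" => DihedralGroup 4

/-- The action on the first square. -/
def squareFun : D8 → Fin 8 → Fin 8
  | .r i, k => if k.val < 4 then ⟨(k.val + i.val) % 4, by omega⟩ else k
  | .sr i, k => if k.val < 4 then ⟨(8 - (k.val + i.val)) % 4, by omega⟩ else k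

theorem squareFun_one : ∀ k, squareFun 1 k = k := by decide

theorem squareFun_mul : ∀ a b k, squareFun (a * b) k = squareFun a (squareFun b k) := by decide

/-- The action on the first square as permutations. -/
def squarePerm : D8 →* Equiv.Perm (Fin 8) where
  toFun a := ⟨squareFun a, squareFun a⁻¹,
    fun k => by rw [← squareFun_mul, inv_mul_cancel, squareFun_one],
    fun k => by rw [← squareFun_mul, mul_inv_cancel, squareFun_one]⟩
  map_one' := Equiv.ext squareFun_one
  map_mul' a b := Equiv.ext (squareFun_mul a b)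

/-- Exchange of the squares. -/
def squareSwap : Equiv.Perm (Fin 8) :=
  Equiv.swap 0 4 * Equiv.swap 1 5 * Equiv.swap 2 6 * Equiv.swap 3 7

theorem squareSwap_sq : squareSwap * squareSwap = 1 := by decide

theorem square_commute : ∀ (a b : D8) (k : Fin 8), squarePerm a ((squareSwap * squarePerm b * squareSwap) k) =
    (squareSwap * squarePerm b * squareSwap) (squarePerm a k) := by decide

/-- `D₈ wr 2` on eight points. -/
def permD : Wr D8 →* Equiv.Perm (Fin 8) :=
  wrHom squarePerm squareSwap squareSwap_sq fun a b => Equiv.ext fun k => square_commute a b k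

theorem permD_ker₀ : ∀ a b : D8,
    (∀ k : Fin 8, (squarePerm a * (squareSwap * squarePerm b * squareSwap)) k = k) ↔ (a = 1 ∧ b = 1) := by
  decide

theorem permD_ker₁ : ∀ a b : D8,
    ¬ ∀ k : Fin 8, (squarePerm a * (squareSwap * squarePerm b * squareSwap) * squareSwap) k = k := by
  decide

theorem permD_injective : Function.Injective permD := by
  refine (injective_iff_map_eq_one permD).2 fun w => (wrHom_mem_ker_iff (P := fun g => g = 1)
    (Q := fun w => w = 1) _ _ _ _ (fun x y => ?_) (fun x y => ?_) w).1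
  · refine Equiv.ext_iff.trans ((permD_ker₀ x y).trans ⟨?_, fun h => ?_⟩)
    · rintro ⟨rfl, rfl⟩; rfl
    · exact ⟨congrArg (fun v : Wr D8 => v.left.1) h, congrArg (fun v : Wr D8 => v.left.2) h⟩
  · exact iff_of_false (fun e => permD_ker₁ x y (Equiv.ext_iff.1 e))
      (fun h => absurd (congrArg (fun v : Wr D8 => v.right) h)
        (by decide : (Multiplicative.ofAdd (1 : ZMod 2)) ≠ 1))

end PermDihedral

/-! ### `O₆⁻(2)` -/

section Orthogonal

local notation "D8" => DihedralGroup 4
local notation "ι" => ((Fin 2 ⊕ Fin 2) ⊕ Fin 2)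
local notation "M6" => Matrix ι ι (ZMod 2)

/-- The coordinate map `(x, p, y, q, r, s)` as a vector. -/
def vec (x p y q r s : ZMod 2) : ι → ZMod 2
  | .inl (.inl 0) => x
  | .inl (.inl 1) => p
  | .inl (.inr 0) => y
  | .inl (.inr 1) => q
  | .inr 0 => r
  | .inr 1 => s

/-- The matrix of a linear map given by coordinates. -/
def ofMap (L : (ι → ZMod 2) → (ι → ZMod 2)) : M6 := Matrix.of fun i j => L (Pi.single j 1) i

/-- The transvection of the Siegel group at the first coordinate vector `(1, 1, 0, 0)`. -/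
def siegel (v : ι → ZMod 2) : ι → ZMod 2 :=
  let x := v (.inl (.inl 0)); let p := v (.inl (.inl 1)); let y := v (.inl (.inr 0))
  let q := v (.inl (.inr 1)); let r := v (.inr 0); let s := v (.inr 1)
  vec (x + (q + p) + y) (p + y) y (q + y) r s

/-- The reflection exchanging `(1,1,0,0)` and `(1,0,1,0)`, fixing `(1,0,0,1)` and `(1,0,1,1)`. -/
def transp (v : ι → ZMod 2) : ι → ZMod 2 :=
  let x := v (.inl (.inl 0)); let p := v (.inl (.inl 1)); let y := v (.inl (.inr 0))
  let q := v (.inl (.inr 1)); let r := v (.inr 0); let s := v (.inr 1)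
  vec x p y (q + p + s) (r + p + s) s

/-- The map exchanging the two pairs of vectors. -/
def pairSwap (v : ι → ZMod 2) : ι → ZMod 2 :=
  let x := v (.inl (.inl 0)); let p := v (.inl (.inl 1)); let y := v (.inl (.inr 0))
  let q := v (.inl (.inr 1)); let r := v (.inr 0); let s := v (.inr 1)
  vec x p y (q + p + r) r (s + p)

/-- The dihedral group in `O₆⁻(2)`. -/
def oMat : D8 → M6
  | .r i => (ofMap siegel * ofMap transp) ^ i.val
  | .sr i => ofMap transp * (ofMap siegel * ofMap transp) ^ i.val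

/-- The exchange. -/
def oSwap : M6 := ofMap pairSwap

theorem oMat_one : oMat 1 = 1 := by decide

theorem oMat_mul : ∀ a b : D8, oMat (a * b) = oMat a * oMat b := by decide

theorem oSwap_sq : oSwap * oSwap = 1 := by decide

theorem oMat_commute : ∀ a b : D8,
    oMat a * (oSwap * oMat b * oSwap) = oSwap * oMat b * oSwap * oMat a := by decide

/-- The six coordinates as the quadratic form. -/
def form (v : ι → ZMod 2) : ZMod 2 :=
  v (.inl (.inl 0)) * v (.inl (.inr 0)) + v (.inl (.inl 1)) * v (.inl (.inr 1)) +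
    (v (.inr 0) ^ 2 + v (.inr 0) * v (.inr 1) + v (.inr 1) ^ 2)

theorem oSwap_isom : ∀ x p y q r s : ZMod 2,
    form (oSwap.mulVec (vec x p y q r s)) = form (vec x p y q r s) := by decide

theorem siegel_isom : ∀ x p y q r s : ZMod 2,
    form ((ofMap siegel).mulVec (vec x p y q r s)) = form (vec x p y q r s) := by decide

theorem transp_isom : ∀ x p y q r s : ZMod 2,
    form ((ofMap transp).mulVec (vec x p y q r s)) = form (vec x p y q r s) := by decide

theorem oMat_ker₀ : ∀ a b : D8, oMat a * (oSwap * oMat b * oSwap) = 1 ↔ (a = 1 ∧ b = 1) := by decide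

theorem oMat_ker₁ : ∀ a b : D8, oMat a * (oSwap * oMat b * oSwap) * oSwap ≠ 1 := by decide

end Orthogonal

end CfsgLib.TwoGroups.WreathModels
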