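import Mathlib

/-!
The wreath product of a group with a group of order two, and homomorphisms from it given by a
homomorphism and an involution whose conjugate image commutes with the image.
-/

set_option autoImplicit false

namespace CfsgLib.TwoGroups.WreathPair

variable (D : Type*) [Group D]

/-- The swap action. -/
def swapAut : Multiplicative (ZMod 2) →* MulAut (D × D) where
  toFun c := if c = 1 then 1 else MulEquiv.prodComm
  map_one' := if_pos rfl
  map_mul' := by
    have h : ∀ c : Multiplicative (ZMod 2), c = 1 ∨ c = Multiplicative.ofAdd 1 := by decide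
    intro a b
    rcases h a with rfl | rfl <;> rcases h b with rfl | rfl <;> ext p <;> rfl

/-- `D` wr `2`. -/
abbrev Wr : Type _ := (D × D) ⋊[swapAut D] Multiplicative (ZMod 2)

theorem card_wr [Finite D] : Nat.card (Wr D) = Nat.card D * Nat.card D * 2 := by
  rw [SemidirectProduct.card, Nat.card_prod]
  congr 1
  simp [Nat.card_eq_fintype_card]

variable {D} {M : Type*} [Group M] (f : D →* M) (s : M) (hs : s * s = 1)
  (hc : ∀ a b : D, Commute (f a) (s * f b * s))

/-- The conjugate homomorphism. -/
def conjHom : D →* M where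
  toFun b := s * f b * s
  map_one' := by rw [map_one, mul_one, hs]
  map_mul' a b := by
    rw [map_mul, show s * f a * s * (s * f b * s) = s * f a * (s * s) * f b * s by group, hs]
    group

/-- The two-element part. -/
def swapHom : Multiplicative (ZMod 2) →* M where
  toFun c := if c = 1 then 1 else s
  map_one' := if_pos rfl
  map_mul' := by
    have h : ∀ c : Multiplicative (ZMod 2), c = 1 ∨ c = Multiplicative.ofAdd 1 := by decide
    intro a b
    rcases h a with rfl | rfl <;> rcases h b with rfl | rfl
    · simp
    · simp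
    · simp
    · show (1 : M) = s * s
      exact hs.symm

/-- The homomorphism on the wreath product. -/
def wrHom : Wr D →* M :=
  SemidirectProduct.lift (MonoidHom.noncommCoprod f (conjHom f s hs) hc) (swapHom s hs) (by
    have h : ∀ c : Multiplicative (ZMod 2), c = 1 ∨ c = Multiplicative.ofAdd 1 := by decide
    intro c
    rcases h c with rfl | rfl
    · ext p; simp
    · refine MonoidHom.ext fun p => ?_
      show f p.2 * (s * f p.1 * s) = s * (f p.1 * (s * f p.2 * s)) * s⁻¹
      rw [inv_eq_of_mul_eq_one_right hs,
        show s * (f p.1 * (s * f p.2 * s)) * s = s * f p.1 * s * f p.2 * (s * s) by group, hs, mul_one]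
      exact (hc p.2 p.1).eq)

theorem wrHom_left (a b : D) : wrHom f s hs hc ⟨(a, b), 1⟩ = f a * (s * f b * s) := by
  show f a * (s * f b * s) * 1 = _
  rw [mul_one]

theorem wrHom_right (a b : D) :
    wrHom f s hs hc ⟨(a, b), Multiplicative.ofAdd 1⟩ = f a * (s * f b * s) * s := rfl

/-- The kernel, element by element. -/
theorem wrHom_mem_ker_iff {P : M → Prop} {Q : Wr D → Prop}
    (h0 : ∀ a b, P (f a * (s * f b * s)) ↔ Q ⟨(a, b), 1⟩)
    (h1 : ∀ a b, P (f a * (s * f b * s) * s) ↔ Q ⟨(a, b), Multiplicative.ofAdd 1⟩) (w : Wr D) :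
    P (wrHom f s hs hc w) ↔ Q w := by
  have h : ∀ c : Multiplicative (ZMod 2), c = 1 ∨ c = Multiplicative.ofAdd 1 := by decide
  obtain ⟨⟨a, b⟩, c⟩ := w
  rcases h c with rfl | rfl
  · rw [wrHom_left]; exact h0 a b
  · rw [wrHom_right]; exact h1 a b

/-- Two homomorphisms with the same kernel and ranges of Sylow order give isomorphic Sylow
subgroups. -/
theorem nonempty_sylow_equiv {W A B : Type*} [Group W] [Group A] [Group B] [Finite A] [Finite B]
    {p : ℕ} [Fact p.Prime] (α : W →* A) (β : W →* B) (hker : α.ker = β.ker)
    (hA : Nat.card α.range = p ^ (Nat.card A).factorization p)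
    (hB : Nat.card β.range = p ^ (Nat.card B).factorization p) (P : Sylow p A) (Q : Sylow p B) :
    Nonempty (↥(P : Subgroup A) ≃* ↥(Q : Subgroup B)) := by
  let P₀ : Sylow p A := Sylow.ofCard α.range hA
  let Q₀ : Sylow p B := Sylow.ofCard β.range hB
  exact ⟨(Sylow.equiv P P₀).trans (((QuotientGroup.quotientKerEquivRange α).symm.trans
    ((QuotientGroup.quotientMulEquivOfEq hker).trans (QuotientGroup.quotientKerEquivRange β))).trans
      (Sylow.equiv Q₀ Q))⟩

theorem card_range {W A : Type*} [Group W] [Group A] (α : W →* A) :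
    Nat.card α.ker * Nat.card α.range = Nat.card W := by
  rw [← Nat.card_congr (QuotientGroup.quotientKerEquivRange α).toEquiv, mul_comm,
    ← Subgroup.card_eq_card_quotient_mul_card_subgroup]

end CfsgLib.TwoGroups.WreathPair
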